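import Groth.Agent.EtpbcA.ArtinDim
import Groth.Agent.CycA.IntLocal
import Groth.Agent.VarietyA.LocDim

/-!
# Dimension of schemes locally of finite type over a field through `rtd`
-/

set_option autoImplicit false
universe u
open CategoryTheory AlgebraicGeometry TopologicalSpace Topology
open Groth.Agent.CycB.RelDim

namespace Groth.Agent.Ega4fib.H151.DimRtd

variable {k : Type u} [Field k] {X : Scheme.{u}}

theorem dim_le_iff (f : X ⟶ Spec (CommRingCat.of k)) [LocallyOfFiniteType f] (d : ℕ) :
    topologicalKrullDim X ≤ d ↔ ∀ x : X, rtd f x ≤ d := by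
  let _ : X.Over (Spec (CommRingCat.of k)) := ⟨f⟩
  have : LocallyOfFiniteType (X ↘ Spec (CommRingCat.of k)) := ‹LocallyOfFiniteType f›
  rw [EtpbcA.Artin.topologicalKrullDim_le_iff_trd k X d]
  refine forall_congr' fun x => ?_
  rw [CycA.IntLocal.rtd_eq_trdeg f x]
  exact Nat.cast_le.symm

theorem le_dim_iff (f : X ⟶ Spec (CommRingCat.of k)) [LocallyOfFiniteType f] (n : ℕ) :
    (n : WithBot ℕ∞) ≤ topologicalKrullDim X ↔ ∃ x : X, (n : Cardinal.{u}) ≤ rtd f x := by
  cases n with
  | zero =>
    constructor
    · intro h
      by_contra hne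
      push Not at hne
      have : IsEmpty X := ⟨fun x => absurd (hne x) (by simp)⟩
      have h2 : topologicalKrullDim X = ⊥ := by
        have : IsEmpty (IrreducibleCloseds X) :=
          ⟨fun Z => IsEmpty.false (Z.isIrreducible.nonempty.some : X)⟩
        exact Order.krullDim_eq_bot
      rw [h2] at h
      simp at h
    · rintro ⟨x, -⟩
      have : Nonempty (IrreducibleCloseds X) :=
        ⟨⟨closure {x}, isIrreducible_singleton.closure, isClosed_closure⟩⟩
      exact Order.krullDim_nonneg
  | succ m =>
    have h1 : ((m + 1 : ℕ) : WithBot ℕ∞) ≤ topologicalKrullDim X ↔ ¬ topologicalKrullDim X ≤ m := by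
      rw [not_le]
      push_cast
      exact ENat.WithBot.add_one_le_iff
    rw [h1, dim_le_iff f m]
    push Not
    refine exists_congr fun x => ?_
    rw [CycA.IntLocal.rtd_eq_trdeg f x, Nat.cast_lt, Nat.cast_le]
    rfl

/-- All points of `Spec k` coincide. -/
theorem eq_of_spec_field (a b : Spec (CommRingCat.of k)) : a = b :=
  (inferInstance : Subsingleton (PrimeSpectrum k)).elim a b

theorem rtd_le_of_specializes (f : X ⟶ Spec (CommRingCat.of k)) [LocallyOfFiniteType f]
    {x z : X} (h : z ⤳ x) : rtd f x ≤ rtd f z :=
  VarietyA.LocDim.rtd_le_of_specializes f h (eq_of_spec_field _ _)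

/-- A scheme locally of finite type over a field has the dimension of any dense open; in terms of `rtd`. -/
theorem forall_rtd_le_of_dense (f : X ⟶ Spec (CommRingCat.of k)) [LocallyOfFiniteType f]
    [QuasiCompact f] (U : X.Opens) (hU : Dense (U : Set X)) (d : Cardinal.{u})
    (h : ∀ x ∈ U, rtd f x ≤ d) (x : X) : rtd f x ≤ d := by
  have hX : IsLocallyNoetherian X := LocallyOfFiniteType.isLocallyNoetherian f
  have hc : CompactSpace X := QuasiCompact.compactSpace_of_compactSpace f
  have : IsNoetherian X := {}
  have hfin : (irreducibleComponents X).Finite := NoetherianSpace.finite_irreducibleComponents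
  -- the generic point of a component of `x`
  have hZ := irreducibleComponent_mem_irreducibleComponents x
  have hg := hZ.1.isGenericPoint_genericPoint (isClosed_of_mem_irreducibleComponents _ hZ)
  have hspec : hZ.1.genericPoint ⤳ x := hg.specializes mem_irreducibleComponent
  refine (rtd_le_of_specializes f hspec).trans (h _ ?_)
  -- the open complement of the other components
  have hcl : IsClosed (⋃₀ (irreducibleComponents X \ {irreducibleComponent x})) := by
    rw [Set.sUnion_eq_biUnion]
    exact hfin.sdiff.isClosed_biUnion fun W hW ↦ isClosed_of_mem_irreducibleComponents W hW.1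
  have hden := closure_sUnion_irreducibleComponents_sdiff_singleton hfin _ hZ
  have hne : ((⋃₀ (irreducibleComponents X \ {irreducibleComponent x}))ᶜ).Nonempty := by
    by_contra hne
    rw [Set.not_nonempty_iff_eq_empty] at hne
    rw [hne, closure_empty] at hden
    exact (hZ.1.nonempty.ne_empty) hden.symm
  obtain ⟨y, hy, hyU⟩ := hU.inter_open_nonempty _ hcl.isOpen_compl hne
  have hyZ : y ∈ irreducibleComponent x := by
    by_contra hyn
    have h1 : y ∈ irreducibleComponent y := mem_irreducibleComponent
    refine hy ⟨irreducibleComponent y, ⟨irreducibleComponent_mem_irreducibleComponents y, ?_⟩, h1⟩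
    intro h2
    rw [Set.mem_singleton_iff] at h2
    rw [h2] at h1
    exact hyn h1
  exact (hg.specializes hyZ).mem_open U.2 hyU

end Groth.Agent.Ega4fib.H151.DimRtd
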