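import Mathlib.AlgebraicGeometry.AffineSpace
import Mathlib.AlgebraicGeometry.Morphisms.Finite
import Mathlib.AlgebraicGeometry.Morphisms.FiniteType
import Mathlib.AlgebraicGeometry.Morphisms.Integral
import Mathlib.AlgebraicGeometry.Morphisms.ClosedImmersion
import Mathlib.RingTheory.NoetherNormalization

/-!
# Noether normalisation for affine schemes of finite type over a field, as morphisms to affine space
-/

set_option autoImplicit false
universe u
open CategoryTheory AlgebraicGeometry TopologicalSpace Topology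

namespace Groth.Agent.Ega4fib.H151.NoetherSch

variable {k : Type u} [Field k]

/-- The morphism to affine space attached to a `k`-algebra map from a polynomial ring. -/
noncomputable def toAff {R : Type u} [CommRing R] [Algebra k R] (n : ℕ)
    (ψ : MvPolynomial (ULift.{u} (Fin n)) k →ₐ[k] R) :
    Spec (CommRingCat.of R) ⟶ 𝔸(ULift.{u} (Fin n); Spec (CommRingCat.of k)) :=
  Spec.map (CommRingCat.ofHom ψ.toRingHom) ≫ (AffineSpace.SpecIso _ (CommRingCat.of k)).inv

theorem toAff_over {R : Type u} [CommRing R] [Algebra k R] (n : ℕ)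
    (ψ : MvPolynomial (ULift.{u} (Fin n)) k →ₐ[k] R) :
    toAff n ψ ≫ (𝔸(ULift.{u} (Fin n); Spec (CommRingCat.of k)) ↘ Spec (CommRingCat.of k)) =
      Spec.map (CommRingCat.ofHom (algebraMap k R)) := by
  rw [toAff, Category.assoc, AffineSpace.SpecIso_inv_over, ← Spec.map_comp, ← CommRingCat.ofHom_comp]
  congr 2
  ext c
  exact ψ.commutes c

theorem isFinite_toAff {R : Type u} [CommRing R] [Algebra k R] (n : ℕ)
    (ψ : MvPolynomial (ULift.{u} (Fin n)) k →ₐ[k] R) (h : ψ.toRingHom.Finite) :
    IsFinite (toAff n ψ) := by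
  have : IsFinite (Spec.map (CommRingCat.ofHom ψ.toRingHom)) := by
    rw [IsFinite.SpecMap_iff]
    exact h
  rw [toAff]
  infer_instance

theorem surjective_toAff {R : Type u} [CommRing R] [Algebra k R] (n : ℕ)
    (ψ : MvPolynomial (ULift.{u} (Fin n)) k →ₐ[k] R)
    (h : Function.Surjective (PrimeSpectrum.comap ψ.toRingHom)) :
    Surjective (toAff n ψ) := by
  have : Surjective (Spec.map (CommRingCat.ofHom ψ.toRingHom)) := ⟨h⟩
  rw [toAff]
  infer_instance

/-- Changing the number of variables. -/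
theorem exists_down {R : Type u} [CommRing R] [Algebra k R] {s n : ℕ} (h : n ≤ s)
    (ψ : MvPolynomial (Fin s) k →ₐ[k] R)
    (hψ : Function.Surjective (PrimeSpectrum.comap ψ.toRingHom)) :
    ∃ ψ' : MvPolynomial (ULift.{u} (Fin n)) k →ₐ[k] R,
      Function.Surjective (PrimeSpectrum.comap ψ'.toRingHom) := by
  let ι : ULift.{u} (Fin n) → Fin s := fun i => Fin.castLE h i.down
  have hι : Function.Injective ι := fun i j hij => ULift.down_injective (Fin.castLE_injective h hij)
  refine ⟨ψ.comp (MvPolynomial.rename ι), ?_⟩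
  have h1 : Function.Surjective (PrimeSpectrum.comap
      (MvPolynomial.rename ι : MvPolynomial (ULift.{u} (Fin n)) k →ₐ[k] MvPolynomial (Fin s) k).toRingHom) := by
    intro p
    refine ⟨PrimeSpectrum.comap (MvPolynomial.killCompl hι).toRingHom p, ?_⟩
    rw [← PrimeSpectrum.comap_comp_apply]
    have h2 : ((MvPolynomial.killCompl hι).toRingHom.comp
        (MvPolynomial.rename ι : MvPolynomial (ULift.{u} (Fin n)) k →ₐ[k] MvPolynomial (Fin s) k).toRingHom) =
        RingHom.id _ := congrArg AlgHom.toRingHom (MvPolynomial.killCompl_comp_rename (R := k) hι)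
    rw [h2]
    rfl
  have h3 : (ψ.comp (MvPolynomial.rename ι)).toRingHom = ψ.toRingHom.comp
      (MvPolynomial.rename ι : MvPolynomial (ULift.{u} (Fin n)) k →ₐ[k] MvPolynomial (Fin s) k).toRingHom :=
    rfl
  rw [h3, PrimeSpectrum.comap_comp]
  exact h1.comp hψ

theorem exists_up {R : Type u} [CommRing R] [Algebra k R] {s n : ℕ} (h : s ≤ n)
    (ψ : MvPolynomial (Fin s) k →ₐ[k] R) (hψ : ψ.toRingHom.Finite) :
    ∃ ψ' : MvPolynomial (ULift.{u} (Fin n)) k →ₐ[k] R, ψ'.toRingHom.Finite := by
  let ι : Fin s → ULift.{u} (Fin n) := fun i => ⟨Fin.castLE h i⟩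
  have hι : Function.Injective ι := fun i j hij => Fin.castLE_injective h (congrArg ULift.down hij)
  refine ⟨ψ.comp (MvPolynomial.killCompl hι), ?_⟩
  have h1 : (MvPolynomial.killCompl (R := k) hι).toRingHom.Finite := by
    apply RingHom.Finite.of_surjective
    intro p
    exact ⟨MvPolynomial.rename ι p, MvPolynomial.killCompl_rename_app hι p⟩
  exact hψ.comp h1

theorem exists_ulift {R : Type u} [CommRing R] [Algebra k R] {s : ℕ}
    (ψ : MvPolynomial (Fin s) k →ₐ[k] R) (hψ : ψ.toRingHom.Finite)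
    (hψ' : Function.Surjective (PrimeSpectrum.comap ψ.toRingHom)) :
    ∃ ψ' : MvPolynomial (ULift.{u} (Fin s)) k →ₐ[k] R, ψ'.toRingHom.Finite ∧
      Function.Surjective (PrimeSpectrum.comap ψ'.toRingHom) := by
  let e : MvPolynomial (ULift.{u} (Fin s)) k ≃ₐ[k] MvPolynomial (Fin s) k :=
    MvPolynomial.renameEquiv k Equiv.ulift
  refine ⟨ψ.comp e.toAlgHom, ?_, ?_⟩
  · exact hψ.comp (RingHom.Finite.of_surjective _ e.surjective)
  · have h3 : (ψ.comp e.toAlgHom).toRingHom = ψ.toRingHom.comp e.toRingEquiv.toRingHom := rfl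
    rw [h3, PrimeSpectrum.comap_comp]
    refine Function.Surjective.comp ?_ hψ'
    exact (PrimeSpectrum.comapEquiv e.toRingEquiv).symm.surjective

/-- Noether normalisation on `Spec`. -/
theorem exists_noether (R : Type u) [CommRing R] [Nontrivial R] [Algebra k R] [Algebra.FiniteType k R] :
    ∃ (s : ℕ) (ψ : MvPolynomial (Fin s) k →ₐ[k] R), ψ.toRingHom.Finite ∧
      Function.Surjective (PrimeSpectrum.comap ψ.toRingHom) := by
  obtain ⟨s, g, hg, hf⟩ := exists_finite_inj_algHom_of_fg k R
  exact ⟨s, g, hf, RingHom.IsIntegral.comap_surjective (f := g.toRingHom) hf.to_isIntegral hg⟩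

end Groth.Agent.Ega4fib.H151.NoetherSch
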